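import Cfsg.Agent.H721.FR.Base
import Cfsg.Agent.H955.FSParity
import Cfsg.Agent.H592.FSAdapt
import Cfsg.Agent.Characters.Central

/-!
# TEAM SR, second part (S4970): the covering principle with a central element

* `exists_half_gen` : parity for both signs of the indicator;
* `fsz_of_cover_odd`, `isom_of_cov_odd` : the covering principle, over the elements `c` of odd order.
-/

set_option autoImplicit false

universe u

namespace Cfsg.Agent.H138.FR

open Cfsg Cfsg.Agent.H721.FR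
open Cfsg.Agent.Characters.Core Cfsg.Agent.Characters.Clifford Cfsg.Agent.H692.SqRoot
open Cfsg.Agent.H955.FS (fsi Parity.fsi_eq_nu Parity.exists_split fsi_cases)
open scoped ComplexConjugate

/-- the multiplicity of a real character `ψ` in the restriction of a real character `χ` is even if the
indicators are different -/
theorem even_mult {G : Type u} [Group G] [Fintype G] {χ : G → ℂ} (hχ : IsIrrCharacter G χ)
    (hχr : ∀ g, (χ g).im = 0) (X : Subgroup G) [Fintype X] {ψ : X → ℂ} (hψ : IsIrrCharacter X ψ)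
    (hreal : ∀ x, conj (ψ x) = ψ x) (hν : nu χ * nu ψ ≠ 1) {m : ℕ}
    (hm : classInner (fun x : X => χ x) ψ = m) : Even m := by
  classical
  by_contra hodd
  rw [Nat.not_even_iff_odd] at hodd
  let Θ : G × X → ℂ := fun x => χ x.1 * ψ x.2
  have hΘ : IsIrrCharacter (G × X) Θ := (Cfsg.Agent.S0188.result Θ).2 ⟨χ, ψ, hχ, hψ, rfl⟩
  have hΘr : ∀ g, (Θ g).im = 0 := by
    intro g
    have h1 : (ψ g.2).im = 0 := Complex.conj_eq_iff_im.1 (hreal _)
    change (χ g.1 * ψ g.2).im = 0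
    rw [Complex.mul_im, hχr, h1, mul_zero, zero_mul, add_zero]
  have hΘν : nu Θ = nu χ * nu ψ := by
    unfold nu
    rw [Nat.card_prod, Fintype.sum_prod_type]
    simp only [Θ, Prod.mk_mul_mk]
    rw [← Finset.sum_mul_sum]
    push_cast
    rw [mul_inv]
    ring
  let δ : X →* G × X := X.subtype.prod (MonoidHom.id X)
  have hδ : Function.Injective δ := fun a b h => congrArg Prod.snd h
  let e : X ≃* δ.range := MonoidHom.ofInjective hδ
  have hfin : Fintype δ.range := Fintype.ofFinite _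
  have h1 := Cfsg.Agent.H692.RealOver.nu_eq_one_of_odd_mult hΘ hΘr δ.range m hodd (by
    rw [← classInner_comp_mulEquiv e, ← hm]
    unfold classInner
    congr 1
    refine Finset.sum_congr rfl fun x _ => ?_
    rw [hreal]
    simp only [Function.comp_apply, map_one, mul_one]
    rfl)
  rw [hΘν] at h1
  exact hν h1

/-- the restriction of a real character, when no real constituent has the same indicator -/
theorem exists_half_gen {G : Type u} [Group G] [Finite G] {χ : G → ℂ} (hχ : IsIrrCharacter G χ)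
    (hr : ∀ g, (χ g).im = 0) (X : Subgroup G)
    (hX : ∀ ψ : X → ℂ, IsIrrCharacter X ψ → (∀ x, conj (ψ x) = ψ x) → ∑ᶠ x : X, χ x * conj (ψ x) ≠ 0 →
      fsi χ * fsi ψ ≠ 1) :
    ∃ α : X → ℂ, IsCharacter X α ∧ ∀ x : X, χ x = α x + conj (α x) := by
  classical
  have hG := Fintype.ofFinite G
  have hfX := Fintype.ofFinite X
  have hχr : ∀ g, conj (χ g) = χ g := fun g => Complex.conj_eq_iff_im.2 (hr g)
  have := finite_irr (G := X)
  have hI := Fintype.ofFinite (IrrCharacter X)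
  have hres : IsCharacter X (fun x : X => χ x) := isCharacter_restrict X (isIrr_isCharacter hχ)
  obtain ⟨m, hm⟩ := exists_nat_comb hres
  have hmult : ∀ ψ : IrrCharacter X, classInner (fun x : X => χ x) (ψ : X → ℂ) = m ψ := by
    intro ψ
    rw [hm]
    exact classInner_sum_nsmul_irr m ψ
  let σ : IrrCharacter X → IrrCharacter X := fun ψ => ⟨fun x => conj ((ψ : X → ℂ) x), isIrr_conj ψ.2⟩
  have hσ : ∀ ψ, σ (σ ψ) = ψ := by
    intro ψ
    apply Subtype.ext
    funext x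
    exact Complex.conj_conj _
  have hmσ : ∀ ψ, m (σ ψ) = m ψ := by
    intro ψ
    have h1 : (m (σ ψ) : ℂ) = m ψ := by
      rw [← hmult, ← hmult, classInner_def, classInner_def]
      have h2 : ∀ x : X, χ x * conj ((σ ψ : X → ℂ) x) = conj (χ x * conj ((ψ : X → ℂ) x)) := by
        intro x
        rw [map_mul, hχr]
      simp only [h2]
      have h3 : (Nat.card X : ℂ)⁻¹ * ∑ x : X, conj (χ x * conj ((ψ : X → ℂ) x)) =
          conj ((Nat.card X : ℂ)⁻¹ * ∑ x : X, χ x * conj ((ψ : X → ℂ) x)) := by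
        rw [map_mul, map_inv₀, map_natCast, map_sum]
      rw [h3, ← classInner_def (fun x : X => χ x), hmult, map_natCast]
    exact_mod_cast h1
  have heven : ∀ ψ, σ ψ = ψ → Even (m ψ) := by
    intro ψ hψ
    rcases Nat.eq_zero_or_pos (m ψ) with h0 | h0
    · rw [h0]
      exact Even.zero
    · have hψr : ∀ x, conj ((ψ : X → ℂ) x) = (ψ : X → ℂ) x := fun x => congrFun (congrArg Subtype.val hψ) x
      refine even_mult hχ hr X ψ.2 hψr ?_ (hmult ψ)
      rw [← Parity.fsi_eq_nu, ← Parity.fsi_eq_nu]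
      refine hX _ ψ.2 hψr ?_
      rw [finsum_eq_sum_of_fintype]
      intro h1
      have h2 := hmult ψ
      rw [classInner_def, h1, mul_zero] at h2
      have h3 : m ψ = 0 := by exact_mod_cast h2.symm
      omega
  obtain ⟨k, hk⟩ := Parity.exists_split σ hσ m hmσ heven
  refine ⟨∑ ψ : IrrCharacter X, k ψ • (ψ : X → ℂ), isCharacter_sum _ fun ψ _ =>
    isCharacter_nsmul _ (isIrr_isCharacter ψ.2), fun x => ?_⟩
  have h1 : χ x = ∑ ψ : IrrCharacter X, (m ψ : ℂ) * (ψ : X → ℂ) x := by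
    have h2 := congrFun hm x
    rw [h2, Finset.sum_apply]
    refine Finset.sum_congr rfl fun ψ _ => ?_
    rw [Pi.smul_apply, nsmul_eq_mul]
  have h2 : (∑ ψ : IrrCharacter X, k ψ • (ψ : X → ℂ)) x = ∑ ψ : IrrCharacter X, (k ψ : ℂ) * (ψ : X → ℂ) x := by
    rw [Finset.sum_apply]
    refine Finset.sum_congr rfl fun ψ _ => ?_
    rw [Pi.smul_apply, nsmul_eq_mul]
  have h3 : conj (∑ ψ : IrrCharacter X, (k ψ : ℂ) * (ψ : X → ℂ) x) =
      ∑ ψ : IrrCharacter X, (k (σ ψ) : ℂ) * (ψ : X → ℂ) x := by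
    rw [map_sum]
    refine Fintype.sum_equiv ⟨σ, σ, hσ, hσ⟩ _ _ fun ψ => ?_
    rw [map_mul, map_natCast]
    change _ = (k (σ (σ ψ)) : ℂ) * (σ ψ : X → ℂ) x
    rw [hσ]
  rw [h2, h3, h1, ← Finset.sum_add_distrib]
  refine Finset.sum_congr rfl fun ψ _ => ?_
  rw [← hk ψ]
  push_cast
  ring

/-- central elements act by scalars -/
theorem exists_central {G : Type u} [Group G] [Finite G] {χ : G → ℂ} (hχ : IsIrrCharacter G χ) {z : G}
    (hzc : ∀ g, g * z = z * g) (hz : z * z = 1) :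
    ∃ w : ℂ, (w = 1 ∨ w = -1) ∧ ∀ g : G, χ (z * g) = w * χ g := by
  have h0 : χ 1 ≠ 0 := by
    obtain ⟨d, hd, hd1⟩ := isIrr_apply_one hχ
    rw [hd1]
    exact_mod_cast hd.ne'
  obtain ⟨n, ρ, hρ, rfl⟩ := hχ
  obtain ⟨c, hc⟩ := Characters.Central.exists_smul_of_comm ρ hρ (ρ z) (fun g => by
    rw [← map_mul, ← map_mul, hzc g])
  have h1 : ∀ h : G, ρ.character (z * h) = c * ρ.character h := by
    intro h
    change LinearMap.trace ℂ _ (ρ (z * h)) = c * LinearMap.trace ℂ _ (ρ h)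
    rw [map_mul, hc, smul_mul_assoc, one_mul, map_smul, smul_eq_mul]
  refine ⟨c, ?_, h1⟩
  have h2 : c * c = 1 := by
    have h3 : ρ.character (z * (z * 1)) = c * (c * ρ.character 1) := by rw [h1, h1]
    rw [← mul_assoc, hz, one_mul] at h3
    apply mul_right_cancel₀ h0
    rw [one_mul, mul_assoc]
    exact h3.symm
  exact mul_self_eq_one_iff.1 h2

/-- extending a `2`-subgroup with a property to a maximal one -/
theorem exists_max {G : Type u} [Group G] [Finite G] (Q : Subgroup G → Prop) (P : Subgroup G) (hP : Q P) :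
    ∃ M : Subgroup G, P ≤ M ∧ Q M ∧ ∀ M' : Subgroup G, M ≤ M' → Q M' → M' = M := by
  obtain ⟨M, hPM, hM⟩ := (Set.toFinite {K : Subgroup G | Q K}).exists_le_maximal hP
  exact ⟨M, hPM, hM.prop, fun M' h1 h2 => le_antisymm (hM.le_of_ge h2 h1) h1⟩

/-- **The covering principle with a central element `z` of order at most two.** -/
theorem fsz_of_cover_odd' {G : Type u} [Group G] [Finite G] (z : G) (hzc : ∀ g, g * z = z * g) (hz : z * z = 1)
    (h : ∀ c : G, Odd (orderOf c) → ∀ P : Subgroup G, IsPGroup 2 P →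
      (∀ g ∈ P, g * c * g⁻¹ = c ∨ g * c * g⁻¹ = c⁻¹) →
      (∃ g ∈ P, g * c * g⁻¹ = c⁻¹) →
      (∀ P' : Subgroup G, P ≤ P' → IsPGroup 2 P' → (∀ g ∈ P', g * c * g⁻¹ = c ∨ g * c * g⁻¹ = c⁻¹) → P' = P) →
      ∃ Y : Subgroup G, c ∈ Y ∧ P ≤ Y ∧ FSZs Y z) : FSZ z := by
  intro χ hχ hbad
  have h0 : χ 1 ≠ 0 := by
    obtain ⟨d, hd, hd1⟩ := isIrr_apply_one hχ
    rw [hd1]
    exact_mod_cast hd.ne'
  obtain ⟨w, hw, hχw⟩ := exists_central hχ hzc hz
  have hχz : χ z = w * χ 1 := by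
    rw [← hχw, mul_one]
  have hfw : fsi χ * w = -1 := by
    apply mul_right_cancel₀ h0
    rw [mul_assoc, ← hχz, hbad]
    ring
  have hww : w * w = 1 := by
    rcases hw with rfl | rfl <;> norm_num
  have hreal : ∀ g, (χ g).im = 0 := by
    apply Cfsg.Agent.H955.FS.real_of_fsi_ne_zero hχ
    intro h1
    rw [h1, zero_mul] at hfw
    norm_num at hfw
  have hff : fsi χ * fsi χ = 1 := by
    rcases fsi_cases hχ with h1 | h1 | h1
    · rw [h1, zero_mul] at hfw
      norm_num at hfw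
    · rw [h1]; norm_num
    · rw [h1]; norm_num
  obtain ⟨c, P, hc, hP, hcP, ⟨t, htP, ht⟩, hnot⟩ := H592.FSPar.exists_not_half_real hχ hreal
  obtain ⟨M, hPM, ⟨hM2, hMc⟩, hMm⟩ := exists_max
    (fun K : Subgroup G => IsPGroup 2 K ∧ ∀ g ∈ K, g * c * g⁻¹ = c ∨ g * c * g⁻¹ = c⁻¹) P ⟨hP, hcP⟩
  obtain ⟨Y, hcY, hMY, hzY, hY⟩ := h c hc M hM2 hMc ⟨t, hPM htP, ht⟩ fun P' h1 h2 h3 => hMm P' h1 ⟨h2, h3⟩
  refine hnot Y hcY (hPM.trans hMY) ?_
  refine exists_half_gen hχ hreal Y fun ψ hψ hψr hne h1 => ?_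
  have := Fintype.ofFinite Y
  obtain ⟨w', hw', hψw⟩ := exists_central hψ (z := (⟨z, hzY⟩ : Y)) (fun g => Subtype.ext (hzc g)) (Subtype.ext hz)
  have hw'w' : w' * w' = 1 := by
    rcases hw' with rfl | rfl <;> norm_num
  have hw'c : conj w' = w' := by
    rcases hw' with rfl | rfl <;> simp
  -- the scalars agree
  have hS : ∑ x : Y, χ x * conj (ψ x) = w * w' * ∑ x : Y, χ x * conj (ψ x) := by
    rw [Finset.mul_sum]
    refine (Fintype.sum_equiv (Equiv.mulLeft (⟨z, hzY⟩ : Y)) _ _ fun x => ?_)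
    have h2 : χ (((⟨z, hzY⟩ : Y) * x : Y) : G) = w * χ x := hχw x
    have h3 : ψ ((⟨z, hzY⟩ : Y) * x) = w' * ψ x := hψw x
    rw [Equiv.coe_mulLeft, h2, h3, map_mul, hw'c]
    calc χ x * conj (ψ x) = (w * w) * (w' * w') * (χ x * conj (ψ x)) := by rw [hww, hw'w']; ring
      _ = _ := by ring
  have hw1 : w * w' = 1 := by
    rw [finsum_eq_sum_of_fintype] at hne
    apply mul_right_cancel₀ hne
    rw [one_mul]
    exact hS.symm
  have hw2 : w' = w := by
    calc w' = (w * w) * w' := by rw [hww, one_mul]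
      _ = w * (w * w') := by ring
      _ = w := by rw [hw1, mul_one]
  have hψz : ψ ⟨z, hzY⟩ = w * ψ 1 := by
    rw [← hw2, ← hψw, mul_one]
  refine hY ψ hψ ?_
  have h4 : fsi ψ = fsi χ := by
    calc fsi ψ = (fsi χ * fsi χ) * fsi ψ := by rw [hff, one_mul]
      _ = fsi χ * (fsi χ * fsi ψ) := by ring
      _ = fsi χ := by rw [h1, mul_one]
  rw [h4, hψz, ← mul_assoc, hfw]
  ring

/-- **The covering principle with a central element `z` of order at most two.** -/
theorem fsz_of_cover_odd {G : Type u} [Group G] [Finite G] (z : G) (hzc : ∀ g, g * z = z * g) (hz : z * z = 1)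
    (h : ∀ c : G, Odd (orderOf c) → ∀ P : Subgroup G, IsPGroup 2 P →
      (∀ g ∈ P, g * c * g⁻¹ = c ∨ g * c * g⁻¹ = c⁻¹) →
      (∀ P' : Subgroup G, P ≤ P' → IsPGroup 2 P' → (∀ g ∈ P', g * c * g⁻¹ = c ∨ g * c * g⁻¹ = c⁻¹) → P' = P) →
      ∃ Y : Subgroup G, c ∈ Y ∧ P ≤ Y ∧ FSZs Y z) : FSZ z :=
  fsz_of_cover_odd' z hzc hz fun c hc P h1 h2 _ h3 => h c hc P h1 h2 h3

/-! ### transport -/

theorem FSZ.congr {G H : Type u} [Group G] [Group H] [Finite G] (e : G ≃* H) {z : G} (h : FSZ z) :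
    FSZ (e z) := by
  intro χ hχ h1
  refine h (χ ∘ e.toMonoidHom) (isIrr_comp e.toMonoidHom e.surjective hχ) ?_
  rw [Cfsg.Agent.H955.FS.fsi_comp e.toMonoidHom e.surjective]
  have h2 : (χ ∘ e.toMonoidHom) 1 = χ 1 := by
    change χ (e 1) = χ 1
    rw [map_one]
  rw [h2]
  exact h1


theorem FSZs.congr {G H : Type u} [Group G] [Group H] (e : G ≃* H) {Y : Subgroup G} [Finite Y] {z : G}
    (h : FSZs Y z) : FSZs (Y.map e.toMonoidHom) (e z) := by
  obtain ⟨hz, h1⟩ := h
  exact ⟨⟨z, hz, rfl⟩, FSZ.congr (e.subgroupMap Y) h1⟩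

/-- The covering principle for a subgroup of an ambient group. -/
theorem fszs_of_cover_amb {Γ : Type u} [Group Γ] (G : Subgroup Γ) [Finite G] {z : Γ} (hzG : z ∈ G)
    (hzc : ∀ g ∈ G, g * z = z * g) (hz : z * z = 1)
    (h : ∀ c ∈ G, Odd (orderOf c) → ∀ P : Subgroup Γ, P ≤ G → IsPGroup 2 P →
      (∀ g ∈ P, g * c * g⁻¹ = c ∨ g * c * g⁻¹ = c⁻¹) → (∃ g ∈ P, g * c * g⁻¹ = c⁻¹) →
      (∀ P' : Subgroup Γ, P ≤ P' → P' ≤ G → IsPGroup 2 P' →
        (∀ g ∈ P', g * c * g⁻¹ = c ∨ g * c * g⁻¹ = c⁻¹) → P' = P) →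
      ∃ Y : Subgroup Γ, Y ≤ G ∧ c ∈ Y ∧ P ≤ Y ∧ FSZs Y z) :
    FSZs G z := by
  refine ⟨hzG, fsz_of_cover_odd' _ (fun g => Subtype.ext (hzc g g.2)) (Subtype.ext hz) fun c hc P hP hcP ht hm => ?_⟩
  obtain ⟨t, htP, ht⟩ := ht
  obtain ⟨Y, hYG, hcY, hPY, hzY, hY⟩ := h c c.2 (by rwa [Subgroup.orderOf_coe]) (P.map G.subtype)
    (by
      rintro _ ⟨x, -, rfl⟩
      exact x.2)
    (hP.map G.subtype)
    (by
      rintro _ ⟨x, hx, rfl⟩
      rcases hcP x hx with h | h
      · exact Or.inl (congrArg Subtype.val h)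
      · exact Or.inr (congrArg Subtype.val h))
    ⟨t, ⟨t, htP, rfl⟩, congrArg Subtype.val ht⟩
    (by
      intro P' h1 h2 h3 h4
      have h5 : P ≤ P'.subgroupOf G := by
        intro x hx
        exact Subgroup.mem_subgroupOf.2 (h1 ⟨x, hx, rfl⟩)
      have h6 := hm (P'.subgroupOf G) h5 (h3.comap_of_injective G.subtype G.subtype_injective) (by
        intro g hg
        rcases h4 g (Subgroup.mem_subgroupOf.1 hg) with h | h
        · exact Or.inl (Subtype.ext h)
        · exact Or.inr (Subtype.ext h))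
      rw [← h6, Subgroup.subgroupOf_map_subtype, inf_eq_left.2 h2])
  refine ⟨Y.subgroupOf G, Subgroup.mem_subgroupOf.2 hcY, fun x hx => ?_, Subgroup.mem_subgroupOf.2 hzY, ?_⟩
  · exact Subgroup.mem_subgroupOf.2 (hPY ⟨x, hx, rfl⟩)
  · have : Finite Y := Finite.of_injective (Subgroup.inclusion hYG)
      (Subgroup.inclusion_injective hYG)
    exact FSZ.congr (Subgroup.subgroupOfEquivOfLe hYG).symm hY

/-! ### the geometric form -/

section Geo

variable {F V : Type u} [Field F] [AddCommGroup V] [Module F V]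

theorem finite_gl [Finite F] [FiniteDimensional F V] : Finite (V ≃ₗ[F] V) := by
  have : Finite V := Module.finite_of_finite F
  exact Finite.of_injective (fun g : V ≃ₗ[F] V => (g : V → V)) DFunLike.coe_injective

theorem zel_comm (ε : F) (g : V ≃ₗ[F] V) : g * zel V ε = zel V ε * g := by
  unfold zel
  split_ifs with h
  · rw [mul_one, one_mul]
  · apply LinearEquiv.ext
    intro x
    change g (-x) = - g x
    rw [map_neg]

theorem zel_sq (ε : F) : zel V ε * zel V ε = 1 := by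
  unfold zel
  split_ifs with h
  · rw [mul_one]
  · apply LinearEquiv.ext
    intro x
    change - (-x) = x
    rw [neg_neg]

theorem zel_mem (ε : F) (B : V →ₗ[F] V →ₗ[F] F) : zel V ε ∈ Isom B := by
  intro x y
  unfold zel
  split_ifs with h
  · rfl
  · change B (-x) (-y) = B x y
    rw [map_neg, map_neg, LinearMap.neg_apply, neg_neg]

/-- **the covering principle**, for the elements `c` of odd order which are inverted by an element of `P` -/
theorem isom_of_cov_odd' [Finite F] [FiniteDimensional F V] {B : V →ₗ[F] V →ₗ[F] F} {ε : F}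
    (h : ∀ (c : V ≃ₗ[F] V) (P : Subgroup (V ≃ₗ[F] V)), c ∈ Isom B → Odd (orderOf c) →
      (∃ g ∈ P, g * c * g⁻¹ = c⁻¹) → Mx B c P → Cov B ε c P) : FSZs (Isom B) (zel V ε) := by
  have := finite_gl (F := F) (V := V)
  refine fszs_of_cover_amb (Isom B) (zel_mem ε B) (fun g _ => zel_comm ε g) (zel_sq ε)
    fun c hc ho P h1 h2 h3 h4 h5 => ?_
  exact h c P hc ho h4 ⟨h1, h2, h3, h5⟩

/-- **the covering principle**, for the elements `c` of odd order -/
theorem isom_of_cov_odd [Finite F] [FiniteDimensional F V] {B : V →ₗ[F] V →ₗ[F] F} {ε : F}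
    (h : ∀ (c : V ≃ₗ[F] V) (P : Subgroup (V ≃ₗ[F] V)), c ∈ Isom B → Odd (orderOf c) →
      Mx B c P → Cov B ε c P) : FSZs (Isom B) (zel V ε) :=
  isom_of_cov_odd' fun c P h1 h2 _ h3 => h c P h1 h2 h3

end Geo

end Cfsg.Agent.H138.FR
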