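import Cfsg.Agent.H138.FR.MixB
import Cfsg.Agent.H137.FR.Scalar
import Cfsg.Agent.H194.FR.Good
import Cfsg.Agent.H396.Uni.Tens
import Cfsg.Agent.H699.FR.Sem

/-!
# S4970, FR-MIX: elements which are neither semisimple nor unipotent
-/

set_option autoImplicit false

universe u

namespace Cfsg.Agent.H138.FR

open Cfsg Cfsg.Agent.H721.FR Cfsg.Agent.H47.Uni Cfsg.Agent.H396.Uni Module
open Cfsg.Agent.H955.FS (FSGood)

variable {F V : Type u} [Field F] [AddCommGroup V] [Module F V] {B : V →ₗ[F] V →ₗ[F] F} {ε : F}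

theorem nFour [Finite F] (W : Type u) [AddCommGroup W] [Module F W] [FiniteDimensional F W] : NFour F W := by
  intro B c P τ hF hn hc hτ hns hPI hP2 act
  exact Cfsg.Agent.H194.FR.n4_good hF hn hc hτ (by rwa [← pow_two]) hPI hP2 act

theorem sem2 [Finite F] (W : Type u) [AddCommGroup W] [Module F W] [FiniteDimensional F W] : Sem2 F W := by
  intro B c P τ hF hn hc hτ h1 h2 hPI hP2 act
  have : Finite W := Module.finite_of_finite F
  exact Cfsg.Agent.H137.FR.red_of_scalar hF hc hτ h1 h2 hPI hP2 act hn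

/-- the data of helper47 from the structure of helper396 -/
theorem dt_of {N : V →ₗ[F] V} {k : ℕ} {M : Submodule F V} {u : V ≃ₗ[F] V} (h : Str B N k M) (hN : Cay B u N)
    (hs : ∀ x y, B x y = ε * B y x) (hnd : ∀ x, (∀ y, B x y = 0) → x = 0) :
    Dt B ε u k M (bet B N k M) h.tens h.hh where
  sym := h.bet_symm hs
  nd := h.bet_nd hnd
  isom := fun a ha => (h.tens_mem a).2 ha
  sm := fun s x => by
    have h1 : h.tens (LinearEquiv.smulOfUnit s) = LinearEquiv.smulOfUnit s := by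
      apply h.ext_equiv
      intro i x
      rw [h.tens_apply]
      change (N ^ i) ((s : F) • (x : V)) = (s : F) • (N ^ i) (x : V)
      rw [map_smul]
    rw [h1]
    rfl
  hh2 := h.hh_hh
  hhB := h.hh_form
  hhc := h.hh_c hN
  hht := fun a => (h.hh_tens a).symm
  ct := fun a => h.tens_c hN a

/-- the order of `⟨s⟩ P` -/
theorem card_sup_ne_zero [Finite F] [FiniteDimensional F V] (h2 : (2 : F) ≠ 0) {s : V ≃ₗ[F] V}
    (hsp : (orderOf s : F) ≠ 0) {P : Subgroup (V ≃ₗ[F] V)} (hP2 : IsPGroup 2 P) (act : ∀ g ∈ P, CI s g) :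
    (Nat.card (Subgroup.closure {s} ⊔ P : Subgroup (V ≃ₗ[F] V)) : F) ≠ 0 := by
  have := finite_gl (F := F) (V := V)
  obtain ⟨p, hp⟩ := CharP.exists F
  have hpp : p.Prime := by
    have := Fintype.ofFinite F
    exact (CharP.char_is_prime_or_zero F p).resolve_right (CharP.char_ne_zero_of_finite F p)
  have hfact : Fact p.Prime := ⟨hpp⟩
  intro h0
  rw [CharP.cast_eq_zero_iff F p] at h0
  obtain ⟨⟨g, hg⟩, hgo⟩ := exists_prime_orderOf_dvd_card' p h0
  -- the elements of `⟨s⟩ P`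
  have hconj : ∀ x ∈ P, ∀ i : ℤ, ∃ j : ℤ, x * s ^ i * x⁻¹ = s ^ j := by
    intro x hx i
    rcases act x hx with h | h
    · exact ⟨i, by rw [← conj_zpow, h]⟩
    · exact ⟨-i, by rw [← conj_zpow, h, inv_zpow, zpow_neg]⟩
  let T : Subgroup (V ≃ₗ[F] V) :=
    { carrier := {g | ∃ (i : ℤ), ∃ x ∈ P, g = s ^ i * x}
      one_mem' := ⟨0, 1, one_mem _, by simp⟩
      mul_mem' := by
        rintro _ _ ⟨i, x, hx, rfl⟩ ⟨j, y, hy, rfl⟩
        obtain ⟨l, hl⟩ := hconj x hx j
        refine ⟨i + l, x * y, mul_mem hx hy, ?_⟩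
        rw [zpow_add, ← hl]
        group
      inv_mem' := by
        rintro _ ⟨i, x, hx, rfl⟩
        obtain ⟨l, hl⟩ := hconj x⁻¹ (inv_mem hx) (-i)
        refine ⟨l, x⁻¹, inv_mem hx, ?_⟩
        rw [← hl]
        group }
  have hT : Subgroup.closure {s} ⊔ P ≤ T := by
    refine sup_le ((Subgroup.closure_le _).2 (Set.singleton_subset_iff.2 ⟨1, 1, one_mem _, by simp⟩)) ?_
    intro x hx
    exact ⟨0, x, hx, by simp⟩
  obtain ⟨i, x, hx, rfl⟩ := hT hg
  -- powers
  have hpow : ∀ n : ℕ, ∃ j : ℤ, (s ^ i * x) ^ n = s ^ j * x ^ n := by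
    intro n
    induction n with
    | zero => exact ⟨0, by simp⟩
    | succ n ih =>
      obtain ⟨j, hj⟩ := ih
      obtain ⟨l, hl⟩ := hconj (x ^ n) (pow_mem hx n) i
      refine ⟨j + l, ?_⟩
      rw [pow_succ, hj, zpow_add, ← hl, pow_succ]
      group
  obtain ⟨n, hn⟩ := hP2 ⟨x, hx⟩
  have hn' : x ^ 2 ^ n = 1 := congrArg Subtype.val hn
  obtain ⟨j, hj⟩ := hpow (2 ^ n)
  rw [hn', mul_one] at hj
  have hg1 : (s ^ i * x) ^ (2 ^ n * orderOf s) = 1 := by
    rw [pow_mul, hj, ← zpow_natCast, ← zpow_mul, mul_comm, zpow_mul, zpow_natCast, pow_orderOf_eq_one, one_zpow]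
  have hord : orderOf (s ^ i * x) = p := by
    rw [← hgo, Subgroup.orderOf_mk]
  have hdvd : p ∣ 2 ^ n * orderOf s := by
    rw [← hord]
    exact orderOf_dvd_of_pow_eq_one hg1
  rcases hpp.dvd_mul.1 hdvd with h3 | h3
  · have h4 := hpp.dvd_of_dvd_pow h3
    apply h2
    have h5 : ((2 : ℕ) : F) = 0 := (CharP.cast_eq_zero_iff F p 2).2 h4
    exact_mod_cast h5
  · exact hsp ((CharP.cast_eq_zero_iff F p _).2 h3)

/-- the mixed case, with the two parts -/
theorem cov_mix [Finite F] [FiniteDimensional F V] (hF : Fm B ε) (hI : ∀ m < finrank F V, Hyp.{u} m)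
    {s u : V ≃ₗ[F] V} (hs : s ∈ Isom B) (hu : u ∈ Isom B) (hsu : s * u = u * s) (hs1 : s ≠ 1)
    (hso : Odd (orderOf s)) (hsp : (orderOf s : F) ≠ 0) (hu1 : u ≠ 1) (huo : Odd (orderOf u))
    (hun : IsNilpotent (((u : V →ₗ[F] V) : End F V) - 1)) {P : Subgroup (V ≃ₗ[F] V)} (hPB : P ≤ Isom B)
    (hP2 : IsPGroup 2 P)
    (act : ∀ g ∈ P, (g * s * g⁻¹ = s ∧ g * u * g⁻¹ = u) ∨ (g * s * g⁻¹ = s⁻¹ ∧ g * u * g⁻¹ = u⁻¹))
    (hex : ∃ g ∈ P, g * u * g⁻¹ = u⁻¹) :
    Red B (Subgroup.closure {s * u} ⊔ P) ∨ Cov B ε (s * u) P := by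
  have hgl := finite_gl (F := F) (V := V)
  have huu := ne_inv_of_odd hu1 huo
  have hs2 : ¬ 2 ∣ orderOf s := fun h => (Nat.not_even_iff_odd.2 hso) (even_iff_two_dvd.2 h)
  rcases Cfsg.Agent.H699.FR.cov_sem_gen hF hI hs hs1 hs2 hsp (c' := s * u) (mul_mem hs hu)
    (by rw [mul_assoc, ← hsu]) hPB (fun g hg => (act g hg).imp And.left And.left) with h | h | ⟨τ, hτ, h1, h1'⟩
  · exact Or.inl h
  · exact Or.inr h
  set R : Subgroup (V ≃ₗ[F] V) := Subgroup.closure {s} ⊔ P with hR
  have hsR : s ∈ R := Subgroup.mem_sup_left (Subgroup.subset_closure rfl)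
  have hPR : P ≤ R := le_sup_right
  have hRB : R ≤ Isom B := sup_le ((Subgroup.closure_le _).2 (Set.singleton_subset_iff.2 hs)) hPB
  have hsu' : s * u * s⁻¹ = u := by rw [hsu, mul_inv_cancel_right]
  have hRu : ∀ g ∈ R, g * u * g⁻¹ = u ∨ g * u * g⁻¹ = u⁻¹ := by
    have h3 : R ≤ Cfsg.Agent.H467.FRSmall.invC B u :=
      sup_le ((Subgroup.closure_le _).2 (Set.singleton_subset_iff.2 ⟨hs, Or.inl hsu'⟩))
        fun g hg => ⟨hPB hg, (act g hg).imp And.right And.right⟩
    exact fun g hg => (h3 hg).2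
  have hcard : (Nat.card R : F) ≠ 0 :=
    card_sup_ne_zero hF.two hsp hP2 fun g hg => (act g hg).imp And.left And.left
  have hεε : ε * ε = 1 := by
    rcases hF.eps with h | ⟨h, -⟩ <;> rw [h] <;> ring
  have hle : Subgroup.closure {s * u} ⊔ P ≤ Subgroup.closure {u} ⊔ R :=
    sup_le ((Subgroup.closure_le _).2 (Set.singleton_subset_iff.2
      (mul_mem (Subgroup.mem_sup_right hsR) (Subgroup.mem_sup_left (Subgroup.subset_closure rfl)))))
      (hPR.trans le_sup_right)
  rcases uni1 hF.two hεε hF.symm hF.nondeg hu hu1 hun hcard hRB hRu with h | ⟨N, k, M, hN, hM, hMR, hact⟩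
  · exact Or.inl (Cfsg.Agent.H957.FR.Red.mono hle h)
  have hDt := dt_of (ε := ε) hM hN hF.symm hF.nondeg
  have hIn : ∀ g ∈ R, InP k M (bet B N k M) hM.tens hM.hh g := fun g hg =>
    hM.mem_cases hMR hRB hg ((hact g hg).imp And.right And.right)
  have hV0 : 0 < finrank F V := by
    rw [Nat.pos_iff_ne_zero]
    intro h
    have := Module.finrank_zero_iff.1 h
    exact hu1 (LinearEquiv.ext fun v => Subsingleton.elim _ _)
  have hlt : finrank F M < finrank F V := by
    have h3 := hM.finrank_eq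
    have h4 := hM.hk
    have h5 : 0 < finrank F M := by
      rw [Nat.pos_iff_ne_zero]
      intro h6
      rw [h6, mul_zero] at h3
      omega
    nlinarith
  have hcov : Cov B ε u R → Cov B ε (s * u) P := by
    rintro ⟨Y, hY1, hY2, hY3, hY4⟩
    exact ⟨Y, hY1, mul_mem (hY3 hsR) hY2, hPR.trans hY3, hY4⟩
  have hk0 : k ≠ 0 := by
    have := hM.hk
    omega
  rcases Nat.even_or_odd k with hk | hk
  · have hodd : Nat.card F % 4 = 1 ∨ Nat.card F % 4 = 3 := by
      have := Fintype.ofFinite F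
      have h3 : Nat.card F % 2 = 1 := by
        rw [Nat.card_eq_fintype_card]
        refine FiniteField.odd_card_of_char_ne_two fun h => hF.two ?_
        have := ringChar.Nat.cast_ringChar (R := F)
        rw [h] at this
        exact_mod_cast this
      omega
    rcases hodd with hq | hq
    · exact Or.inr (hcov (cov_even hF hk hk0 hq hDt hu hu1 huo (hI _ hlt) hIn))
    · have hε1 : ε = 1 := by
        rcases hF.eps with h | ⟨-, h⟩
        · exact h
        · omega
      subst hε1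
      -- `s = tens s'`
      obtain ⟨s', hs', hss'⟩ : ∃ a ∈ Isom (bet B N k M), s = hM.tens a := by
        rcases hIn s hsR with h | ⟨b, -, h⟩
        · exact h
        · exfalso
          apply huu
          have h3 : s * u * s⁻¹ = u⁻¹ := by
            have h4 : hM.hh * hM.tens b * u * (hM.hh * hM.tens b)⁻¹ =
                hM.hh * (hM.tens b * u * (hM.tens b)⁻¹) * hM.hh⁻¹ := by group
            rw [h, h4, hDt.ct, mul_inv_cancel_right, hDt.hhc]
          rw [← h3, hsu']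
      have htm : ∀ (a : M ≃ₗ[F] M) (x : M), hM.tens a (x : V) = (a x : M) := hM.tens_coe
      have hinj := tens_inj htm
      have hso' : Odd (orderOf s') := by
        rw [← orderOf_injective hM.tens hinj s', ← hss']
        exact hso
      have hτ' : ∀ x, s' x + s'⁻¹ x = τ • x := by
        intro x
        apply Subtype.ext
        have h3 := hτ (x : V)
        rw [hss', ← map_inv, htm, htm] at h3
        exact h3
      have h3 := mix4 (nFour M) (sem2 M) hF hk hk0 hDt htm hu hu1 huo hs' hso' hτ' h1 h1' hPB hP2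
        (fun g hg => hIn g (hPR hg)) (fun g hg => by
          rw [← hss']
          exact (act g hg).imp And.symm And.symm) hex
      rw [← hss'] at h3
      exact h3
  · exact Or.inr (hcov (cov_odd hF hk hDt hu hu1 huo (hI _ hlt) hIn))

end Cfsg.Agent.H138.FR
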