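import Cfsg.Agent.H138.FR.Two
import Cfsg.Agent.H138.FR.Lift
import Cfsg.Agent.H47.Uni.Cov

/-!
# S4970, FR-MIX: the case `k` even, `q = 3 mod 4`
-/

set_option autoImplicit false

universe u

namespace Cfsg.Agent.H138.FR

open Cfsg Cfsg.Agent.H721.FR Cfsg.Agent.H47.Uni Module
open Cfsg.Agent.H955.FS (FSGood)

/-- centralise or invert -/
def CI {Γ : Type u} [Group Γ] (c g : Γ) : Prop := g * c * g⁻¹ = c ∨ g * c * g⁻¹ = c⁻¹

variable {F V : Type u} [Field F] [AddCommGroup V] [Module F V]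

/-- the statement of `N4` for the group of isometries -/
def NFour (F W : Type u) [Field F] [AddCommGroup W] [Module F W] : Prop :=
  ∀ (B : W →ₗ[F] W →ₗ[F] F) (c : W ≃ₗ[F] W) (P : Subgroup (W ≃ₗ[F] W)) (τ : F), Fm B 1 → finrank F W = 4 →
    c ∈ Isom B → (∀ x, c x + c⁻¹ x = τ • x) → ¬ IsSquare (4 - τ ^ 2) → P ≤ Isom B → IsPGroup 2 P →
    (∀ g ∈ P, CI c g) → ∃ Y : Subgroup (W ≃ₗ[F] W), Y ≤ Isom B ∧ c ∈ Y ∧ P ≤ Y ∧ (∀ y ∈ Y, CI c y) ∧ FSGood False Y

/-- the statement of `SEM2` -/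
def Sem2 (F W : Type u) [Field F] [AddCommGroup W] [Module F W] : Prop :=
  ∀ (B : W →ₗ[F] W →ₗ[F] F) (c : W ≃ₗ[F] W) (P : Subgroup (W ≃ₗ[F] W)) (τ : F), Fm B 1 → 3 ≤ finrank F W →
    c ∈ Isom B → (∀ x, c x + c⁻¹ x = τ • x) → τ ≠ 2 → τ ≠ -2 → P ≤ Isom B → IsPGroup 2 P → (∀ g ∈ P, CI c g) →
    Red B (Subgroup.closure {c} ⊔ P) ∨ (finrank F W = 4 ∧ ¬ IsSquare (4 - τ ^ 2))

section

variable {u : V ≃ₗ[F] V} {k : ℕ} {M : Submodule F V} {B : V →ₗ[F] V →ₗ[F] F} {β : M →ₗ[F] M →ₗ[F] F}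
  {tens : (M ≃ₗ[F] M) →* (V ≃ₗ[F] V)} {hh : V ≃ₗ[F] V}

theorem tens_inj (htm : ∀ (a : M ≃ₗ[F] M) (x : M), tens a (x : V) = (a x : M)) : Function.Injective tens := by
  intro a b hab
  apply LinearEquiv.ext
  intro x
  apply Subtype.ext
  rw [← htm, ← htm, hab]

/-- `hh` is not of the form `tens a` -/
theorem hh_ne (h : Dt B 1 u k M β tens hh) (hu1 : u ≠ 1) (huo : Odd (orderOf u)) (a : M ≃ₗ[F] M) : hh ≠ tens a := by
  intro h1
  have h2 : hh * u * hh⁻¹ = u := by rw [h1, h.ct, mul_inv_cancel_right]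
  rw [h.hhc] at h2
  have h3 : u ^ 2 = 1 := by
    rw [pow_two]
    nth_rewrite 1 [← h2]
    exact inv_mul_cancel u
  have h4 : orderOf u ∣ 2 := orderOf_dvd_of_pow_eq_one h3
  rcases (Nat.dvd_prime Nat.prime_two).1 h4 with h5 | h5
  · exact hu1 (orderOf_eq_one_iff.1 h5)
  · rw [h5] at huo
    exact absurd huo (by decide)

/-- the group induced on `M` -/
def Pm (h : Dt B 1 u k M β tens hh) (P : Subgroup (V ≃ₗ[F] V)) : Subgroup (M ≃ₗ[F] M) where
  carrier := {a | tens a ∈ P ∨ hh * tens a ∈ P}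
  one_mem' := Or.inl (by rw [map_one]; exact one_mem P)
  mul_mem' := by
    have hc : ∀ a, tens a * hh = hh * tens a := h.hht
    rintro a b (ha | ha) (hb | hb)
    · left
      rw [map_mul]
      exact mul_mem ha hb
    · right
      rw [map_mul, ← mul_assoc, ← hc, mul_assoc]
      exact mul_mem ha hb
    · right
      rw [map_mul, ← mul_assoc]
      exact mul_mem ha hb
    · left
      have h1 := mul_mem ha hb
      have h2 : hh * tens a * (hh * tens b) = tens (a * b) := by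
        calc hh * tens a * (hh * tens b) = hh * (tens a * hh) * tens b := by group
          _ = (hh * hh) * (tens a * tens b) := by rw [hc]; group
          _ = _ := by rw [h.hh2, one_mul, map_mul]
      rwa [h2] at h1
  inv_mem' := by
    have hc : ∀ a, tens a * hh = hh * tens a := h.hht
    have hi : hh⁻¹ = hh := inv_eq_of_mul_eq_one_left h.hh2
    rintro a (ha | ha)
    · left
      rw [map_inv]
      exact inv_mem ha
    · right
      have h1 := inv_mem ha
      rw [mul_inv_rev, hi, ← map_inv, hc] at h1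
      exact h1

theorem mem_Pm (h : Dt B 1 u k M β tens hh) {P : Subgroup (V ≃ₗ[F] V)} {a : M ≃ₗ[F] M} :
    a ∈ Pm h P ↔ tens a ∈ P ∨ hh * tens a ∈ P := Iff.rfl

theorem Pm_two (h : Dt B 1 u k M β tens hh) (htm : ∀ (a : M ≃ₗ[F] M) (x : M), tens a (x : V) = (a x : M))
    {P : Subgroup (V ≃ₗ[F] V)} (hP : IsPGroup 2 P) : IsPGroup 2 (Pm h P) := by
  have hinj := tens_inj htm
  have hsq : ∀ a : M ≃ₗ[F] M, a ∈ Pm h P → tens (a * a) ∈ P := by
    rintro a (ha | ha)
    · rw [map_mul]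
      exact mul_mem ha ha
    · have h1 := mul_mem ha ha
      have h2 : hh * tens a * (hh * tens a) = tens (a * a) := by
        calc hh * tens a * (hh * tens a) = hh * (tens a * hh) * tens a := by group
          _ = (hh * hh) * (tens a * tens a) := by rw [h.hht]; group
          _ = _ := by rw [h.hh2, one_mul, map_mul]
      rwa [h2] at h1
  rintro ⟨a, ha⟩
  obtain ⟨n, hn⟩ := hP ⟨tens (a * a), hsq a ha⟩
  refine ⟨n + 1, Subtype.ext ?_⟩
  change a ^ 2 ^ (n + 1) = 1
  apply hinj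
  have h3 : (tens (a * a)) ^ 2 ^ n = 1 := congrArg Subtype.val hn
  rw [map_one, pow_succ', pow_mul, pow_two, map_pow, h3]

/-- **the cover from a totally good group on `M`** -/
theorem cov_of_good [Finite F] [FiniteDimensional F V] (hk : Even k) (hk0 : k ≠ 0)
    (h : Dt B 1 u k M β tens hh) (huB : u ∈ Isom B) {s : M ≃ₗ[F] M}
    {Y' : Subgroup (M ≃ₗ[F] M)} (hgood : FSGood False Y') (hsY : s ∈ Y') (hs : s ∈ Isom β)
    (hY : ∀ y ∈ Y', y ∈ Isom β ∨ ∀ x z, β (y x) (y z) = - β x z)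
    {b0 : M ≃ₗ[F] M} (hb0 : ∀ x z, β (b0 x) (b0 z) = - β x z) (hb0' : hh * tens b0 ∈ Isom B)
    {P : Subgroup (V ≃ₗ[F] V)} (hPB : P ≤ Isom B)
    (hPY : ∀ g ∈ P, (∃ a ∈ Y', g = tens a) ∨ ∃ a ∈ Y', g = hh * tens a) : Cov B 1 (tens s * u) P := by
  have hfV := finite_gl (F := F) (V := V)
  have hfM := finite_gl (F := F) (V := M)
  have hk1 : ((-1 : F)) ^ (k - 1) = -1 := by
    obtain ⟨j, rfl⟩ := hk
    refine Odd.neg_one_pow ⟨j - 1, ?_⟩
    omega
  have hhB : ∀ x y, B (hh x) (hh y) = - B x y := fun x y => by rw [h.hhB, hk1]; ring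
  -- similitudes with factor `±1`
  let S : Subgroup (V ≃ₗ[F] V) :=
    { carrier := {g | (∀ x y, B (g x) (g y) = B x y) ∨ ∀ x y, B (g x) (g y) = - B x y}
      one_mem' := Or.inl fun x y => rfl
      mul_mem' := by
        rintro a b (ha | ha) (hb | hb)
        · left; intro x y; change B (a (b x)) (a (b y)) = _; rw [ha, hb]
        · right; intro x y; change B (a (b x)) (a (b y)) = _; rw [ha, hb]
        · right; intro x y; change B (a (b x)) (a (b y)) = _; rw [ha, hb]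
        · left; intro x y; change B (a (b x)) (a (b y)) = _; rw [ha, hb, neg_neg]
      inv_mem' := by
        rintro a (ha | ha)
        · left
          intro x y
          have h1 := ha (a⁻¹ x) (a⁻¹ y)
          have e : ∀ x, a (a⁻¹ x) = x := fun x => a.apply_symm_apply x
          rw [e, e] at h1
          exact h1.symm
        · right
          intro x y
          have h1 := ha (a⁻¹ x) (a⁻¹ y)
          have e : ∀ x, a (a⁻¹ x) = x := fun x => a.apply_symm_apply x
          rw [e, e] at h1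
          rw [h1, neg_neg] }
  have htb0 : ∀ x y, B (tens b0 x) (tens b0 y) = - B x y := by
    intro x y
    have h1 := hb0' x y
    change B (hh (tens b0 x)) (hh (tens b0 y)) = _ at h1
    rw [hhB] at h1
    rw [← h1, neg_neg]
  have hYS : ∀ y ∈ Y', tens y ∈ S := by
    intro y hy
    rcases hY y hy with h1 | h1
    · exact Or.inl (h.isom y h1)
    · have h2 : y * b0⁻¹ ∈ Isom β := by
        intro x z
        obtain ⟨x, rfl⟩ := b0.surjective x
        obtain ⟨z, rfl⟩ := b0.surjective z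
        have e : ∀ x, (y * b0⁻¹) (b0 x) = y x := fun x => by
          change y (b0⁻¹ (b0 x)) = y x
          rw [show b0⁻¹ (b0 x) = x from b0.symm_apply_apply x]
        rw [e, e, h1, hb0]
      have h3 : tens y = tens (y * b0⁻¹) * tens b0 := by rw [← map_mul, inv_mul_cancel_right]
      rw [h3]
      exact S.mul_mem (Or.inl (h.isom _ h2)) (Or.inr htb0)
  obtain ⟨D, hfD, hD, hDg⟩ := good_dih (Subgroup.zpowers u) (by
    rintro _ ⟨i, rfl⟩ _ ⟨j, rfl⟩
    exact (Commute.zpow_zpow (Commute.refl u) i j).eq) h.hh2 (by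
    rintro _ ⟨i, rfl⟩
    change hh * u ^ i * hh⁻¹ = (u ^ i)⁻¹
    rw [← conj_zpow, h.hhc, inv_zpow])
  have huD : u ∈ D := (hD u).2 (Or.inl (Subgroup.mem_zpowers u))
  have hhD : hh ∈ D := (hD hh).2 (Or.inr (by rw [h.hh2]; exact one_mem _))
  have hcomm : ∀ d ∈ D, ∀ a, d * tens a = tens a * d := by
    intro d hd a
    have h1 : ∀ i : ℤ, u ^ i * tens a = tens a * u ^ i := fun i =>
      ((show Commute (tens a) u from h.ct a).zpow_right i).eq.symm
    rcases (hD d).1 hd with ⟨i, hi⟩ | ⟨i, hi⟩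
    · rw [← hi]
      exact h1 i
    · have h2 : d = u ^ i * hh := by
        have h3 : u ^ i = d * hh := hi
        rw [h3, mul_assoc, h.hh2, mul_one]
      rw [h2, mul_assoc, ← h.hht, ← mul_assoc, h1, mul_assoc]
  have hDS : ∀ d ∈ D, d ∈ S := by
    intro d hd
    have huS : ∀ i : ℤ, u ^ i ∈ S := fun i => S.zpow_mem (Or.inl huB) i
    rcases (hD d).1 hd with ⟨i, hi⟩ | ⟨i, hi⟩
    · rw [← hi]
      exact huS i
    · have h2 : d = u ^ i * hh := by
        have h3 : u ^ i = d * hh := hi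
        rw [h3, mul_assoc, h.hh2, mul_one]
      rw [h2]
      exact S.mul_mem (huS i) (Or.inr hhB)
  have hE : FSGood False (Y'.map tens) := by
    have h1 := hgood.of_surjective (tens.subgroupMap Y') (tens.subgroupMap_surjective Y')
    exact h1
  have hDE : D ⊔ Y'.map tens ≤ S := by
    refine sup_le hDS ?_
    rintro _ ⟨y, hy, rfl⟩
    exact hYS y hy
  obtain ⟨Y, hYB, hYm, hYg⟩ := good_fibre D (Y'.map tens) (Isom B) (by
    rintro d hd _ ⟨y, -, rfl⟩
    exact hcomm d hd y) hDg hE (by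
    intro a ha b hb ha' hb'
    have ha2 : ∀ x y, B (a x) (a y) = - B x y := (hDE ha).resolve_left ha'
    have hb2 : ∀ x y, B (b x) (b y) = - B x y := (hDE hb).resolve_left hb'
    intro x y
    change B (a (b x)) (a (b y)) = _
    rw [ha2, hb2, neg_neg])
  refine ⟨Y, hYB, ?_, ?_, ?_⟩
  · rw [← hcomm u huD s]
    refine hYm u huD (tens s) ⟨s, hsY, rfl⟩ ?_
    exact (Isom B).mul_mem huB (h.isom s hs)
  · intro g hg
    rcases hPY g hg with ⟨a, ha, rfl⟩ | ⟨a, ha, rfl⟩
    · have h1 := hYm 1 (one_mem _) (tens a) ⟨a, ha, rfl⟩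
      rw [one_mul] at h1
      exact h1 (hPB hg)
    · exact hYm hh hhD (tens a) ⟨a, ha, rfl⟩ (hPB hg)
  · have h1 : zel V (1 : F) = 1 := by
      unfold zel
      rw [if_pos rfl]
    rw [h1]
    exact ⟨one_mem _, fsz_one_iff.2 hYg⟩

end

end Cfsg.Agent.H138.FR
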