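import Cfsg.Agent.H138.FR.Mix

/-!
# S4970, FR-MIX: the decomposition into the semisimple and the unipotent part

* `cov_mix_top` : for `c` of odd order and a 2-group `P` of isometries which centralise or invert `c`, some of them
  inverting `c`: `c = 1`, or `c` is unipotent, or `c` is semisimple, or `Red`, or `Cov`.
-/

set_option autoImplicit false

universe u

namespace Cfsg.Agent.H138.FR

open Cfsg Cfsg.Agent.H721.FR Module

variable {F V : Type u} [Field F] [AddCommGroup V] [Module F V] {B : V →ₗ[F] V →ₗ[F] F} {ε : F}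

theorem nilpotent_of_pow [Finite F] {u : V ≃ₗ[F] V} {n : ℕ} (h : u ^ ringChar F ^ n = 1) :
    IsNilpotent (((u : V →ₗ[F] V) : End F V) - 1) := by
  rcases subsingleton_or_nontrivial V with hV | hV
  · refine ⟨1, ?_⟩
    ext x
    exact Subsingleton.elim _ _
  have hpr : (ringChar F).Prime := by
    have := Fintype.ofFinite F
    exact (CharP.char_is_prime_or_zero F (ringChar F)).resolve_right (CharP.char_ne_zero_of_finite F (ringChar F))
  have : Fact (ringChar F).Prime := ⟨hpr⟩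
  have : CharP (End F V) (ringChar F) := charP_of_injective_algebraMap (algebraMap F (End F V)).injective _
  refine ⟨ringChar F ^ n, ?_⟩
  rw [sub_pow_char_pow_of_commute (ringChar F) n (Commute.one_right _), one_pow]
  have h1 : ∀ (m : ℕ) (x : V), (((u : V →ₗ[F] V) : End F V) ^ m) x = (u ^ m) x := by
    intro m
    induction m with
    | zero => intro x; rfl
    | succ m ih => intro x; rw [pow_succ, pow_succ, Module.End.mul_apply, ih]; rfl
  ext x
  rw [LinearMap.sub_apply, h1, h]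
  exact sub_self x

theorem exists_parts [Finite F] [FiniteDimensional F V] (c : V ≃ₗ[F] V) (ho : Odd (orderOf c)) :
    ∃ (i j : ℤ) (n : ℕ), c = c ^ i * c ^ j ∧ (orderOf (c ^ i) : F) ≠ 0 ∧ Odd (orderOf (c ^ i)) ∧
      Odd (orderOf (c ^ j)) ∧ (c ^ j) ^ ringChar F ^ n = 1 := by
  have := finite_gl (F := F) (V := V)
  have hpr : (ringChar F).Prime := by
    have := Fintype.ofFinite F
    exact (CharP.char_is_prime_or_zero F (ringChar F)).resolve_right (CharP.char_ne_zero_of_finite F (ringChar F))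
  obtain ⟨e, k, m, hn, hmp, he1, he0⟩ := Cfsg.Agent.Characters.Brauer.exists_exponent (orderOf c) (ringChar F)
    (orderOf_pos c).ne' hpr
  have hodd : ∀ i : ℤ, Odd (orderOf (c ^ i)) := by
    intro i
    have h1 : orderOf (c ^ i) ∣ orderOf c := orderOf_dvd_of_pow_eq_one (by
      rw [← zpow_natCast, ← zpow_mul, mul_comm, zpow_mul, zpow_natCast, pow_orderOf_eq_one, one_zpow])
    exact ho.of_dvd_nat h1
  refine ⟨e, 1 - e, k, ?_, ?_, hodd _, hodd _, ?_⟩
  · rw [← zpow_add]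
    simp
  · obtain ⟨d, hd⟩ := Nat.modEq_zero_iff_dvd.1 he0
    have h1 : orderOf (c ^ (e : ℤ)) ∣ m := orderOf_dvd_of_pow_eq_one (by
      rw [zpow_natCast, ← pow_mul, hd, show ringChar F ^ k * d * m = (ringChar F ^ k * m) * d by ring, ← hn, pow_mul,
        pow_orderOf_eq_one, one_pow])
    intro h2
    have h3 : ringChar F ∣ orderOf (c ^ (e : ℤ)) := (CharP.cast_eq_zero_iff F (ringChar F) _).1 h2
    have h4 : ringChar F ∣ m := h3.trans h1
    have h5 := Nat.Coprime.eq_one_of_dvd hmp.symm h4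
    exact hpr.one_lt.ne' h5
  · obtain ⟨d, hd⟩ := Nat.modEq_iff_dvd.1 he1
    have hd' : (1 : ℤ) - e = m * d := by exact_mod_cast hd
    rw [hd', ← zpow_natCast, ← zpow_mul]
    have h3 : (m : ℤ) * d * ((ringChar F ^ k : ℕ) : ℤ) = ((ringChar F ^ k * m : ℕ) : ℤ) * d := by push_cast; ring
    rw [h3, zpow_mul, zpow_natCast, ← hn, pow_orderOf_eq_one, one_zpow]

/-- **the trichotomy** -/
theorem cov_mix_top [Finite F] [FiniteDimensional F V] (hF : Fm B ε) (hI : ∀ m < finrank F V, Hyp.{u} m)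
    {c : V ≃ₗ[F] V} (hc : c ∈ Isom B) (ho : Odd (orderOf c)) {P : Subgroup (V ≃ₗ[F] V)} (hPB : P ≤ Isom B)
    (hP2 : IsPGroup 2 P) (act : ∀ g ∈ P, g * c * g⁻¹ = c ∨ g * c * g⁻¹ = c⁻¹) (hex : ∃ g ∈ P, g * c * g⁻¹ = c⁻¹) :
    c = 1 ∨ (c ≠ 1 ∧ (∃ n : ℕ, c ^ ringChar F ^ n = 1) ∧ IsNilpotent (((c : V →ₗ[F] V) : End F V) - 1)) ∨
      (c ≠ 1 ∧ (orderOf c : F) ≠ 0) ∨ Red B (Subgroup.closure {c} ⊔ P) ∨ Cov B ε c P := by
  by_cases hc1 : c = 1
  · exact Or.inl hc1
  right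
  obtain ⟨i, j, n, h1, h2, h3, h4, h5⟩ := exists_parts c ho
  by_cases hs : c ^ i = 1
  · left
    have h6 : c ^ j = c := by
      rw [hs, one_mul] at h1
      exact h1.symm
    rw [h6] at h5
    exact ⟨hc1, ⟨n, h5⟩, nilpotent_of_pow h5⟩
  right
  by_cases hu : c ^ j = 1
  · left
    have h6 : c ^ i = c := by
      rw [hu, mul_one] at h1
      exact h1.symm
    rw [h6] at h2
    exact ⟨hc1, h2⟩
  right
  have hpw : ∀ g : V ≃ₗ[F] V, g * c * g⁻¹ = c → ∀ l : ℤ, g * c ^ l * g⁻¹ = c ^ l := fun g hg l => by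
    rw [← conj_zpow, hg]
  have hpw' : ∀ g : V ≃ₗ[F] V, g * c * g⁻¹ = c⁻¹ → ∀ l : ℤ, g * c ^ l * g⁻¹ = (c ^ l)⁻¹ := fun g hg l => by
    rw [← conj_zpow, hg, inv_zpow]
  have h6 := cov_mix hF hI (s := c ^ i) (u := c ^ j) (zpow_mem hc i) (zpow_mem hc j)
    (by rw [← zpow_add, ← zpow_add, add_comm]) hs h3 h2 hu h4 (nilpotent_of_pow h5) hPB hP2
    (fun g hg => (act g hg).imp (fun h => ⟨hpw g h i, hpw g h j⟩) fun h => ⟨hpw' g h i, hpw' g h j⟩)
    (by
      obtain ⟨g, hg, h⟩ := hex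
      exact ⟨g, hg, hpw' g h j⟩)
  rw [← h1] at h6
  exact h6

end Cfsg.Agent.H138.FR
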