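import Cfsg.Agent.H138.FR.Idx
import Cfsg.Agent.H467.FRSmall

/-!
# S4970: the normaliser of a torus in dimension two
-/

set_option autoImplicit false

universe u

namespace Cfsg.Agent.H138.FR

open Cfsg Cfsg.Agent.H721.FR Module
open Cfsg.Agent.H955.FS (FSGood)

variable {F V : Type u} [Field F] [AddCommGroup V] [Module F V] {B : V →ₗ[F] V →ₗ[F] F}

theorem exists_cyclic_vector [Finite F] [FiniteDimensional F V] (hF : Fm B 1) (hn : finrank F V = 2)
    {c : V ≃ₗ[F] V} (hc : c ∈ Isom B) {τ : F} (hτ : ∀ x, c x + c⁻¹ x = τ • x) (h1 : τ ≠ 2) (h2 : τ ≠ -2) :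
    ∃ w : V, (∀ a b : F, a • w + b • c w = 0 → a = 0 ∧ b = 0) := by
  by_contra hcon
  push Not at hcon
  have hcc : ∀ v, c (c⁻¹ v) = v := fun v => LinearEquiv.apply_symm_apply c v
  obtain ⟨a, ha⟩ := LinearMap.exists_eq_smul_id_of_forall_notLinearIndependent (f := (c : V →ₗ[F] V)) (by
    intro v hv
    obtain ⟨x, y, hxy, hne⟩ := hcon v
    obtain ⟨h3, h4⟩ := LinearIndependent.pair_iff.1 hv x y hxy
    exact hne h3 h4)
  have hca : ∀ x, c x = a • x := fun x => congrArg (fun f : V →ₗ[F] V => f x) ha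
  have : Nontrivial V := Module.nontrivial_of_finrank_pos (R := F) (by omega)
  obtain ⟨u, hu⟩ := Cfsg.Agent.H467.FRSmall.exists_anis hF (exists_ne (0 : V))
  have haa : a * a = 1 := by
    have h3 := hc u u
    rw [hca] at h3
    simp only [map_smul, LinearMap.smul_apply, smul_eq_mul] at h3
    apply mul_right_cancel₀ hu
    linear_combination h3
  have hu0 : u ≠ 0 := by
    rintro rfl
    apply hu
    simp
  have h4 : τ • u = (2 * a) • u := by
    have h5 : c⁻¹ u = a • u := by
      apply c.injective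
      rw [hcc, hca, smul_smul, haa, one_smul]
    rw [← hτ u, hca, h5, two_mul, add_smul]
  have h5 : τ = 2 * a := by
    have h6 : (τ - 2 * a) • u = 0 := by rw [sub_smul, h4, sub_self]
    exact sub_eq_zero.1 ((smul_eq_zero.1 h6).resolve_right hu0)
  rcases mul_self_eq_one_iff.1 haa with rfl | rfl
  · exact h1 (by rw [h5, mul_one])
  · exact h2 (by rw [h5]; ring)

/-- **dimension two**: the isometries which centralise or invert `c` form a totally good group -/
theorem good_two [Finite F] [FiniteDimensional F V] (hF : Fm B 1) (hn : finrank F V = 2)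
    {c : V ≃ₗ[F] V} (hc : c ∈ Isom B) {τ : F} (hτ : ∀ x, c x + c⁻¹ x = τ • x) (h1 : τ ≠ 2) (h2 : τ ≠ -2)
    {t : V ≃ₗ[F] V} (ht : t ∈ Isom B) (htc : t * c * t⁻¹ = c⁻¹) :
    ∃ Y : Subgroup (V ≃ₗ[F] V), Y ≤ Isom B ∧ c ∈ Y ∧
      (∀ g ∈ Isom B, (g * c * g⁻¹ = c ∨ g * c * g⁻¹ = c⁻¹) → g ∈ Y) ∧
      (∀ y ∈ Y, y * c * y⁻¹ = c ∨ y * c * y⁻¹ = c⁻¹) ∧ FSGood False Y := by
  have := finite_gl (F := F) (V := V)
  obtain ⟨w, hw⟩ := exists_cyclic_vector hF hn hc hτ h1 h2
  have hco := Cfsg.Agent.H467.FRSmall.exists_coord hn hw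
  have hsym : ∀ x y, B x y = B y x := fun x y => by rw [hF.symm x y, one_mul]
  have hcc : ∀ v, c (c⁻¹ v) = v := fun v => LinearEquiv.apply_symm_apply c v
  have hcc' : ∀ v, c⁻¹ (c v) = v := fun v => LinearEquiv.symm_apply_apply c v
  have hcB : ∀ x y, B (c x) y = B x (c⁻¹ y) := fun x y => by
    have h3 := hc x (c⁻¹ y)
    rwa [hcc] at h3
  have hcB' : ∀ x y, B (c⁻¹ x) y = B x (c y) := fun x y => by
    have h3 := hc (c⁻¹ x) y
    rw [hcc] at h3
    exact h3.symm
  have hw0 : w ≠ 0 := by
    rintro rfl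
    have h3 := (hw 1 0 (by simp)).1
    exact one_ne_zero h3
  -- `c ≠ c⁻¹`
  have hcne : ∀ s : F, s ≠ 0 → ¬ ∀ x, s • c x = s • c⁻¹ x := by
    intro s hs h3
    have h4 : ∀ x, c x = c⁻¹ x := fun x => by
      have h5 := h3 x
      exact smul_right_injective V hs h5
    have h5 : (2 : F) • c w = τ • w := by
      rw [← hτ, ← h4, two_smul]
    have h6 := (hw (-τ) 2 (by rw [h5, ← add_smul, neg_add_cancel, zero_smul])).2
    exact hF.two h6
  have hcne' : c ≠ c⁻¹ := by
    intro h3
    exact hcne 1 one_ne_zero fun x => by rw [← h3]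
  -- commutant
  have hcom : ∀ a : V ≃ₗ[F] V, a * c = c * a → ∃ x y : F, ∀ v, a v = x • v + y • c v := by
    intro a ha
    have ha' : ∀ v, a (c v) = c (a v) := fun v => congrArg (fun f : V ≃ₗ[F] V => f v) ha
    obtain ⟨x, y, hxy⟩ := hco (a w)
    refine ⟨x, y, fun v => ?_⟩
    obtain ⟨p, q, rfl⟩ := hco v
    rw [map_add, map_smul, map_smul, ha', hxy]
    simp only [map_add, map_smul, smul_add, smul_smul]
    rw [mul_comm x p, mul_comm y p, mul_comm x q, mul_comm y q]
    abel
  have htc' : ∀ v, t (c v) = c⁻¹ (t v) := fun v => by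
    have h3 : t * c = c⁻¹ * t := by
      rw [← htc]
      group
    exact congrArg (fun f : V ≃ₗ[F] V => f v) h3
  have htc'' : ∀ v, t (c⁻¹ v) = c (t v) := fun v => by
    apply c⁻¹.injective
    rw [← htc', hcc, hcc']
  -- `A`
  let A : Subgroup (V ≃ₗ[F] V) :=
    { carrier := {a | a ∈ Isom B ∧ a * c = c * a}
      one_mem' := ⟨one_mem _, by rw [one_mul, mul_one]⟩
      mul_mem' := by
        rintro a b ⟨ha, ha'⟩ ⟨hb, hb'⟩
        exact ⟨mul_mem ha hb, by rw [mul_assoc, hb', ← mul_assoc, ha', mul_assoc]⟩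
      inv_mem' := by
        rintro a ⟨ha, ha'⟩
        refine ⟨inv_mem ha, ?_⟩
        rw [inv_mul_eq_iff_eq_mul, ← mul_assoc, ha', mul_inv_cancel_right] }
  have hA : ∀ a, a ∈ A ↔ a ∈ Isom B ∧ a * c = c * a := fun a => Iff.rfl
  have hAc : ∀ a ∈ A, ∀ b ∈ A, a * b = b * a := by
    intro a ha b hb
    obtain ⟨x, y, hxy⟩ := hcom a ha.2
    obtain ⟨x', y', hxy'⟩ := hcom b hb.2
    apply LinearEquiv.ext
    intro v
    change a (b v) = b (a v)
    rw [hxy', hxy, hxy, hxy' (x • v + y • c v)]
    simp only [map_add, map_smul, smul_add, smul_smul]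
    rw [mul_comm x x', mul_comm x y', mul_comm y x', mul_comm y y']
    abel
  -- `t² = 1`
  have ht2 : t * t = 1 := by
    have h3 : (t * t) * c = c * (t * t) := by
      apply LinearEquiv.ext
      intro v
      change t (t (c v)) = c (t (t v))
      rw [htc', htc'']
    obtain ⟨x, y, hxy⟩ := hcom _ h3
    have hxy' : ∀ v, t (t v) = x • v + y • c v := hxy
    have hy : y = 0 := by
      by_contra hy
      refine hcne y hy fun v => ?_
      obtain ⟨v, rfl⟩ := t.surjective v
      have h4 : t (t (t v)) = x • t v + y • c (t v) := hxy' (t v)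
      have h5 : t (t (t v)) = x • t v + y • c⁻¹ (t v) := by
        rw [hxy' v, map_add, map_smul, map_smul, htc']
      rw [h4] at h5
      exact add_left_cancel h5
    have hx : ∀ v, t (t v) = x • v := fun v => by rw [hxy', hy, zero_smul, add_zero]
    obtain ⟨u, hu⟩ := Cfsg.Agent.H467.FRSmall.exists_anis hF ⟨w, hw0⟩
    have hxx : x * x = 1 := by
      have h4 := ht (t u) (t u)
      rw [ht u u, hx] at h4
      simp only [map_smul, LinearMap.smul_apply, smul_eq_mul] at h4
      apply mul_right_cancel₀ hu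
      linear_combination h4
    rcases mul_self_eq_one_iff.1 hxx with rfl | rfl
    · apply LinearEquiv.ext
      intro v
      change t (t v) = v
      rw [hx, one_smul]
    · exfalso
      have hskew : ∀ x y, B (t x) y = - B x (t y) := by
        intro x y
        have h4 := ht (t x) y
        rw [hx, neg_smul, one_smul, map_neg, LinearMap.neg_apply] at h4
        rw [← h4]
      -- `t` is a multiple of `c - c⁻¹`
      let f : F := B (t w) (c w)
      let h : F := B (c w - c⁻¹ w) (c w)
      have hskew2 : ∀ x y, B (c x - c⁻¹ x) y = - B x (c y - c⁻¹ y) := by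
        intro x y
        rw [map_sub, LinearMap.sub_apply, hcB, hcB', map_sub]
        ring
      have e1 : ∀ x, B (t x) x = 0 := by
        intro x
        have h4 := hskew x x
        rw [hsym x (t x)] at h4
        exact (mul_eq_zero.1 (show (2 : F) * B (t x) x = 0 by linear_combination h4)).resolve_left hF.two
      have e2 : ∀ x, B (c x - c⁻¹ x) x = 0 := by
        intro x
        have h4 := hskew2 x x
        rw [hsym x (c x - c⁻¹ x)] at h4
        exact (mul_eq_zero.1 (show (2 : F) * B (c x - c⁻¹ x) x = 0 by linear_combination h4)).resolve_left hF.two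
      have hform : ∀ x y, h * B (t x) y = f * B (c x - c⁻¹ x) y := by
        intro x y
        obtain ⟨p, q, rfl⟩ := hco x
        obtain ⟨p', q', rfl⟩ := hco y
        have a1 : B (t (c w)) w = - f := by rw [hskew, hsym]
        have a2 : B (c (c w) - c⁻¹ (c w)) w = - h := by rw [hskew2, hsym]
        have a3 := e1 w
        have a4 := e1 (c w)
        have a5 := e2 w
        have a6 := e2 (c w)
        have b1 : B (t (p • w + q • c w)) (p' • w + q' • c w) = (p * q' - q * p') * f := by
          simp only [map_add, map_smul, LinearMap.add_apply, LinearMap.smul_apply, smul_eq_mul]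
          rw [a1, a3, a4]
          ring
        have b2 : B (c (p • w + q • c w) - c⁻¹ (p • w + q • c w)) (p' • w + q' • c w) = (p * q' - q * p') * h := by
          have b3 : c (p • w + q • c w) - c⁻¹ (p • w + q • c w) = p • (c w - c⁻¹ w) + q • (c (c w) - c⁻¹ (c w)) := by
            simp only [map_add, map_smul, smul_sub]
            abel
          rw [b3]
          simp only [map_add, map_smul, LinearMap.add_apply, LinearMap.smul_apply, smul_eq_mul]
          rw [a2, a5, a6]
          ring
        rw [b1, b2]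
        ring
      have hh0 : h ≠ 0 := by
        intro h0
        have h5 : ∀ x y, B (c x - c⁻¹ x) y = 0 := by
          intro x y
          obtain ⟨p, q, rfl⟩ := hco x
          obtain ⟨p', q', rfl⟩ := hco y
          have a2 : B (c (c w) - c⁻¹ (c w)) w = - h := by rw [hskew2, hsym]
          have b3 : c (p • w + q • c w) - c⁻¹ (p • w + q • c w) = p • (c w - c⁻¹ w) + q • (c (c w) - c⁻¹ (c w)) := by
            simp only [map_add, map_smul, smul_sub]
            abel
          rw [b3]
          have h00 : B (c w - c⁻¹ w) (c w) = 0 := h0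
          simp only [map_add, map_smul, LinearMap.add_apply, LinearMap.smul_apply, smul_eq_mul]
          rw [a2, e2 w, e2 (c w), h00, h0]
          ring
        refine hcne 1 one_ne_zero fun x => ?_
        rw [one_smul, one_smul]
        exact sub_eq_zero.1 (hF.nondeg _ (h5 x))
      have h6 : ∀ x, h • t x = f • (c x - c⁻¹ x) := by
        intro x
        refine sub_eq_zero.1 (hF.nondeg _ fun y => ?_)
        rw [map_sub, LinearMap.sub_apply, map_smul, map_smul, LinearMap.smul_apply, LinearMap.smul_apply, smul_eq_mul,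
          smul_eq_mul, hform, sub_self]
      -- so `t` commutes with `c`
      refine hcne h hh0 fun x => ?_
      obtain ⟨x, rfl⟩ := t.surjective x
      have h7 : h • t (c x) = h • c (t x) := by
        rw [h6, ← map_smul, h6, map_smul, map_sub, hcc, hcc']
      rw [← h7, htc']
  have htA : ∀ a ∈ A, t * a * t⁻¹ = a⁻¹ := by
    intro a ha
    obtain ⟨x, y, hxy⟩ := hcom a ha.2
    rw [mul_inv_eq_iff_eq_mul]
    apply LinearEquiv.ext
    intro v
    change t (a v) = a⁻¹ (t v)
    rw [hxy, map_add, map_smul, map_smul, htc']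
    refine sub_eq_zero.1 (hF.nondeg _ fun u => ?_)
    rw [map_sub, LinearMap.sub_apply]
    have h3 : B (a⁻¹ (t v)) u = B (t v) (a u) := by
      have h4 := ha.1 (a⁻¹ (t v)) u
      have h5 : a (a⁻¹ (t v)) = t v := LinearEquiv.apply_symm_apply a _
      rw [h5] at h4
      exact h4.symm
    rw [h3, hxy]
    simp only [map_add, map_smul, LinearMap.add_apply, LinearMap.smul_apply, smul_eq_mul]
    rw [hcB']
    ring
  obtain ⟨Y, hfin, hY, hgood⟩ := good_dih A hAc ht2 htA
  have hti : t⁻¹ = t := inv_eq_of_mul_eq_one_left ht2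
  have hcA : c ∈ A := ⟨hc, rfl⟩
  refine ⟨Y, ?_, (hY c).2 (Or.inl hcA), ?_, ?_, hgood⟩
  · intro y hy
    rcases (hY y).1 hy with h | h
    · exact h.1
    · have h3 := mul_mem h.1 (inv_mem ht)
      rwa [mul_inv_cancel_right] at h3
  · rintro g hg (h | h)
    · exact (hY g).2 (Or.inl ⟨hg, mul_inv_eq_iff_eq_mul.1 h⟩)
    · refine (hY g).2 (Or.inr ⟨mul_mem hg ht, ?_⟩)
      have h3 : t * c = c⁻¹ * t := by
        rw [← htc]
        group
      have h4 : g * c⁻¹ = c * g := by
        have h5 : g * c⁻¹ * g⁻¹ = (g * c * g⁻¹)⁻¹ := by group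
        rw [h, inv_inv, mul_inv_eq_iff_eq_mul] at h5
        exact h5
      rw [mul_assoc, h3, ← mul_assoc, h4, mul_assoc]
  · intro y hy
    rcases (hY y).1 hy with h | h
    · left
      rw [h.2, mul_inv_cancel_right]
    · right
      have h4 : y * c * y⁻¹ = (y * t) * (t * c * t⁻¹) * (y * t)⁻¹ := by
        have h3 : (y * t) * (t * c * t⁻¹) * (y * t)⁻¹ = y * (t * t) * c * (t * t)⁻¹ * y⁻¹ := by group
        rw [h3, ht2, mul_one, inv_one, mul_one]
      rw [h4, htc]
      have h5 : (y * t) * c⁻¹ = c⁻¹ * (y * t) := by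
        rw [eq_inv_mul_iff_mul_eq, ← mul_assoc, ← h.2, mul_inv_cancel_right]
      rw [h5, mul_inv_cancel_right]

end Cfsg.Agent.H138.FR
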