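import Cfsg.Agent.H138.FR.Final
import Cfsg.Agent.H47.Uni.CovPlane

/-!
# S4970, FR-UNI: unipotent elements (assembly of the results of helper396, helper47, helper957)
-/

set_option autoImplicit false

universe u

namespace Cfsg.Agent.H138.FR

open Cfsg Cfsg.Agent.H721.FR Cfsg.Agent.H47.Uni Cfsg.Agent.H396.Uni Module

variable {F V : Type u} [Field F] [AddCommGroup V] [Module F V] {B : V →ₗ[F] V →ₗ[F] F} {ε : F}

/-- the stabiliser of `{t, -t}` -/
def nrm (t : V ≃ₗ[F] V) : Subgroup (V ≃ₗ[F] V) where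
  carrier := {g | g * t * g⁻¹ = t ∨ g * t * g⁻¹ = t * LinearEquiv.neg F}
  one_mem' := Or.inl (by rw [one_mul, inv_one, mul_one])
  mul_mem' := by
    have hn : ∀ g : V ≃ₗ[F] V, g * (LinearEquiv.neg F : V ≃ₗ[F] V) = (LinearEquiv.neg F : V ≃ₗ[F] V) * g :=
      Cfsg.Agent.H957.FR.neg_comm
    have hnn : (LinearEquiv.neg F : V ≃ₗ[F] V) * (LinearEquiv.neg F : V ≃ₗ[F] V) = 1 :=
      Cfsg.Agent.H957.FR.neg_neg'
    intro a b ha hb
    have e : a * b * t * (a * b)⁻¹ = a * (b * t * b⁻¹) * a⁻¹ := by group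
    have e2 : a * (t * LinearEquiv.neg F) * a⁻¹ = (a * t * a⁻¹) * LinearEquiv.neg F := by
      have e3 : a * (t * LinearEquiv.neg F) * a⁻¹ = a * t * (LinearEquiv.neg F * a⁻¹) := by group
      rw [e3, ← hn a⁻¹]
      group
    rcases hb with hb | hb
    · change a * b * t * (a * b)⁻¹ = _ ∨ a * b * t * (a * b)⁻¹ = _
      rw [e, hb]
      exact ha
    · change a * b * t * (a * b)⁻¹ = _ ∨ a * b * t * (a * b)⁻¹ = _
      rw [e, hb, e2]
      rcases ha with ha | ha
      · right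
        rw [ha]
      · left
        rw [ha, mul_assoc, hnn, mul_one]
  inv_mem' := by
    have hn : ∀ g : V ≃ₗ[F] V, g * (LinearEquiv.neg F : V ≃ₗ[F] V) = (LinearEquiv.neg F : V ≃ₗ[F] V) * g :=
      Cfsg.Agent.H957.FR.neg_comm
    have hnn : (LinearEquiv.neg F : V ≃ₗ[F] V) * (LinearEquiv.neg F : V ≃ₗ[F] V) = 1 :=
      Cfsg.Agent.H957.FR.neg_neg'
    rintro a (ha | ha)
    · left
      rw [mul_inv_eq_iff_eq_mul] at ha ⊢
      rw [inv_mul_eq_iff_eq_mul, ← mul_assoc, ha, mul_inv_cancel_right]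
    · right
      rw [mul_inv_eq_iff_eq_mul] at ha
      rw [mul_inv_eq_iff_eq_mul, inv_mul_eq_iff_eq_mul]
      have e3 : a * (t * LinearEquiv.neg F * a⁻¹) = (a * t) * (LinearEquiv.neg F * a⁻¹) := by group
      rw [e3, ha, ← hn a⁻¹]
      have e4 : t * LinearEquiv.neg F * a * (a⁻¹ * LinearEquiv.neg F) =
          t * (LinearEquiv.neg F * LinearEquiv.neg F) := by group
      rw [e4, hnn, mul_one]

/-- lifting a reduction of `M` -/
theorem red_lift [FiniteDimensional F V] (hF : Fm B ε) {u : V ≃ₗ[F] V} {k : ℕ} {M : Submodule F V}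
    {β : M →ₗ[F] M →ₗ[F] F} {tens : (M ≃ₗ[F] M) →* (V ≃ₗ[F] V)} {hh : V ≃ₗ[F] V}
    (h : Dt B ε u k M β tens hh) (hinj : Function.Injective tens) {δ : F} (hδ : δ ≠ 0)
    (hβ : ∀ x y, β x y = δ * β y x) {P' : Subgroup (M ≃ₗ[F] M)}
    (hP' : ∀ g ∈ P', ∃ s : F, ∀ x y, β (g x) (g y) = s * β x y) (hR : Red β P') {K : Subgroup (V ≃ₗ[F] V)}
    (hK : ∀ g ∈ K, g * u * g⁻¹ = u ∧ (∀ a, g * tens a = tens a * g) ∨ (∃ a ∈ P', g = tens a) ∨
      ∃ a ∈ P', g = hh * tens a) {K' : Subgroup (V ≃ₗ[F] V)} (hK' : K' ≤ Subgroup.closure {u} ⊔ K) : Red B K' := by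
  obtain ⟨t, ht, htt, ht1, htn, htK⟩ := exists_invol_of_red hF.two hδ hβ hP' hR
  have hneg : tens (LinearEquiv.neg F) = LinearEquiv.neg F := by
    rw [neg_eq_smul, h.tens_smul, neg_eq_smul]
  have hpm : ∀ a ∈ P', tens a ∈ nrm (tens t) := by
    intro a ha
    rcases htK a ha with h4 | h4
    · left
      rw [← map_mul, ← map_inv, ← map_mul, h4]
    · right
      rw [← map_mul, ← map_inv, ← map_mul, h4, map_mul, hneg]
  have hZ : Subgroup.closure {u} ⊔ K ≤ nrm (tens t) := by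
    refine sup_le ((Subgroup.closure_le _).2 (Set.singleton_subset_iff.2 (Or.inl ?_))) ?_
    · rw [← h.ct, mul_inv_cancel_right]
    · intro g hg
      rcases hK g hg with ⟨-, h5⟩ | ⟨a, ha, rfl⟩ | ⟨a, ha, rfl⟩
      · left
        rw [h5, mul_inv_cancel_right]
      · exact hpm a ha
      · refine (nrm (tens t)).mul_mem (Or.inl ?_) (hpm a ha)
        rw [← h.hht, mul_inv_cancel_right]
  exact Cfsg.Agent.H957.FR.red_of_invol hF.two hF.symm hF.nondeg (t := tens t) (h.isom t ht)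
    (by rw [← map_mul, htt, map_one]) (fun h4 => ht1 (hinj (by rw [h4, map_one])))
    (fun h4 => htn (hinj (by rw [h4, hneg]))) fun g hg => hZ (hK' hg)

/-- **FR-UNI** -/
theorem cov_uni [Finite F] [FiniteDimensional F V] (hF : Fm B ε) (hI : ∀ m < finrank F V, Hyp.{u} m)
    {u : V ≃ₗ[F] V} (hu : u ∈ Isom B) (hu1 : u ≠ 1) (huo : Odd (orderOf u))
    (hun : ∃ a : ℕ, u ^ (ringChar F) ^ a = 1) {P : Subgroup (V ≃ₗ[F] V)} (hPB : P ≤ Isom B)
    (hP2 : IsPGroup 2 P) (act : ∀ g ∈ P, g * u * g⁻¹ = u ∨ g * u * g⁻¹ = u⁻¹) : Cov B ε u P := by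
  have hgl := finite_gl (F := F) (V := V)
  have huu := ne_inv_of_odd hu1 huo
  have hnil : IsNilpotent (((u : V →ₗ[F] V) : End F V) - 1) := by
    obtain ⟨n, hn⟩ := hun
    exact nilpotent_of_pow hn
  have hcard : (Nat.card P : F) ≠ 0 := by
    have : Fact (Nat.Prime 2) := ⟨Nat.prime_two⟩
    obtain ⟨n, hn⟩ := IsPGroup.iff_card.1 hP2
    rw [hn]
    push_cast
    exact pow_ne_zero _ hF.two
  have hεε : ε * ε = 1 := by
    rcases hF.eps with h | ⟨h, -⟩ <;> rw [h] <;> ring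
  rcases uni1 hF.two hεε hF.symm hF.nondeg hu hu1 hnil hcard hPB act with h | ⟨N, k, M, hN, hM, hMR, hact⟩
  · exact Cfsg.Agent.H76.FR.cov_of_red hF hI hu hPB h
  have hDt := dt_of (ε := ε) hM hN hF.symm hF.nondeg
  have hIn : ∀ g ∈ P, InP k M (bet B N k M) hM.tens hM.hh g := fun g hg =>
    hM.mem_cases hMR hPB hg ((hact g hg).imp And.right And.right)
  have hV0 : 0 < finrank F V := by
    rw [Nat.pos_iff_ne_zero]
    intro h
    have := Module.finrank_zero_iff.1 h
    exact hu1 (LinearEquiv.ext fun v => Subsingleton.elim _ _)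
  have hM0 : 0 < finrank F M := by
    rw [Nat.pos_iff_ne_zero]
    intro h6
    have h3 := hM.finrank_eq
    rw [h6, mul_zero] at h3
    omega
  have hlt : finrank F M < finrank F V := by
    have h3 := hM.finrank_eq
    have h4 := hM.hk
    nlinarith
  have hk0 : k ≠ 0 := by
    have := hM.hk
    omega
  rcases Nat.even_or_odd k with hk | hk
  swap
  · exact cov_odd hF hk hDt hu hu1 huo (hI _ hlt) hIn
  have hodd : Nat.card F % 4 = 1 ∨ Nat.card F % 4 = 3 := by
    have := Fintype.ofFinite F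
    have h3 : Nat.card F % 2 = 1 := by
      rw [Nat.card_eq_fintype_card]
      refine FiniteField.odd_card_of_char_ne_two fun h => hF.two ?_
      have := ringChar.Nat.cast_ringChar (R := F)
      rw [h] at this
      exact_mod_cast this
    omega
  rcases hodd with hq | hq
  · exact cov_even hF hk hk0 hq hDt hu hu1 huo (hI _ hlt) hIn
  have hε1 : ε = 1 := by
    rcases hF.eps with h | ⟨-, h⟩
    · exact h
    · omega
  subst hε1
  have htm : ∀ (a : M ≃ₗ[F] M) (x : M), hM.tens a (x : V) = (a x : M) := hM.tens_coe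
  have hinj := tens_inj htm
  have hk1 : ((-1 : F)) ^ (k - 1) = -1 := by
    obtain ⟨j, rfl⟩ := hk
    refine Odd.neg_one_pow ⟨j - 1, ?_⟩
    omega
  have hβ : ∀ x y, bet B N k M x y = - bet B N k M y x := fun x y => by rw [hDt.sym, hk1]; ring
  have hM2 : 2 ≤ finrank F M := two_le hF.two hβ hDt.nd (by
    have : Nontrivial M := Module.finrank_pos_iff.1 hM0
    exact exists_ne 0)
  by_cases h3 : 3 ≤ finrank F M
  · have hhne := hh_ne hDt hu1 huo
    have hPm : ∀ a ∈ Pm hDt P, ∃ s : F, ∀ x y, bet B N k M (a x) (a y) = s * bet B N k M x y := by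
      rintro a (ha | ha)
      · rcases hIn _ ha with ⟨a', h3, h4⟩ | ⟨b, -, h4⟩
        · rw [hinj h4]
          exact ⟨1, fun x y => by rw [one_mul]; exact h3 x y⟩
        · exfalso
          apply hhne (a * b⁻¹)
          rw [map_mul, h4, map_inv, mul_inv_cancel_right]
      · rcases hIn _ ha with ⟨a', -, h4⟩ | ⟨b, h3, h4⟩
        · exfalso
          apply hhne (a' * a⁻¹)
          rw [map_mul, ← h4, map_inv, mul_inv_cancel_right]
        · have h6 : a = b := hinj (mul_left_cancel h4)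
          rw [h6]
          exact ⟨(-1) ^ (k - 1), h3⟩
    have hRed := Cfsg.Agent.H957.FR.symp_pair hF.two hβ hDt.nd h3 (Pm hDt P) (Pm_two hDt htm hP2) hPm
    refine Cfsg.Agent.H76.FR.cov_of_red hF hI hu hPB ?_
    refine red_lift (δ := -1) hF hDt hinj (neg_ne_zero.2 one_ne_zero)
      (fun x y => by rw [neg_one_mul]; exact hβ x y) hPm hRed (K := P) (fun g hg => Or.inr ?_) le_rfl
    rcases hIn g hg with ⟨a, -, rfl⟩ | ⟨b, -, rfl⟩
    · exact Or.inl ⟨a, Or.inl hg, rfl⟩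
    · exact Or.inr ⟨b, Or.inr hg, rfl⟩
  · have h4 : finrank F M = 2 := by omega
    refine cov_plane hF hk hk0 hq h4 hDt hinj ?_ hu hu1 huo hP2 hIn
    intro b hb x y
    have h5 := (hM.tens_form b (-1)).2 (fun x y => by rw [neg_one_mul]; exact hb x y) x y
    rw [h5, neg_one_mul]

end Cfsg.Agent.H138.FR
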